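import Cfsg.Agent.H710.PSq.Syl

/-!
# Even numbers of Sylow `p`-subgroups of centralizers, II (helper710, S4844)

`|S|_p = p ^ 2`, `x` of order `p`, `T ≤ C(x)` a 2-group.  If `T` normalises a Sylow `p`-subgroup `Q` of `C(x)`, then
`T / C_T(Q)` embeds in the cyclic group `Aut (Q / ⟨x⟩)` of order `p - 1`.
* `even_cent_gen` : the general form;
* `even_cent_comm` : `u, v ∈ T` with `p ^ 2 ∤ |C(⁅u, v⁆)|`;
* `even_cent_four` : commuting involutions `u ≠ v` with `p ^ 2 ∤ |C(u)|, |C(v)|, |C(u v)|`.
-/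

set_option autoImplicit false

namespace Cfsg.Agent.H710.PSq

open Subgroup

universe u

variable {p : ℕ} [hp : Fact p.Prime]

section

variable {Q : Type u} [Group Q] [Finite Q]

/-- An automorphism of 2-power order of a group `Q` of order `p ^ 2` which fixes `x` of order `p` and acts trivially
on `Q / ⟨x⟩` is trivial. -/
theorem fixes_of_mem (hp2 : p ≠ 2) (hQ : Nat.card Q = p ^ 2) {x : Q} (hx : orderOf x = p) (β : MulAut Q)
    (hβ : β x = x) {k : ℕ} (hk : β ^ 2 ^ k = 1) (y : Q) (hm : β y * y⁻¹ ∈ zpowers x) : β y = y := by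
  obtain ⟨z, hz, hzy⟩ : ∃ z ∈ zpowers x, β y = z * y := ⟨_, hm, by rw [inv_mul_cancel_right]⟩
  have hαz : β z = z := by
    obtain ⟨i, rfl⟩ := mem_zpowers_iff.1 hz
    rw [map_zpow, hβ]
  have h1 : ∀ n : ℕ, (β ^ n) y = z ^ n * y := by
    intro n
    induction n with
    | zero => simp
    | succ n ih =>
      rw [pow_succ', MulAut.mul_apply, ih, map_mul, map_pow, hzy, hαz, ← mul_assoc, ← pow_succ]
  have hzp : z ^ p = 1 := by
    obtain ⟨i, rfl⟩ := mem_zpowers_iff.1 hz
    rw [← zpow_natCast, ← zpow_mul, mul_comm, zpow_mul, zpow_natCast, ← hx, pow_orderOf_eq_one, one_zpow]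
  have h2 : (β ^ 2 ^ k) y = y := by rw [hk]; rfl
  rw [h1] at h2
  have h4 : z ^ 2 ^ k = 1 := mul_eq_right.1 h2
  have h5 : z = 1 := by
    rw [← orderOf_eq_one_iff]
    have h6 : orderOf z ∣ Nat.gcd p (2 ^ k) := Nat.dvd_gcd (orderOf_dvd_of_pow_eq_one hzp) (orderOf_dvd_of_pow_eq_one h4)
    have h7 : Nat.gcd p (2 ^ k) = 1 := Nat.Coprime.pow_right k ((Nat.coprime_primes hp.out Nat.prime_two).2 hp2)
    rw [h7] at h6
    exact Nat.dvd_one.1 h6
  rw [hzy, h5, one_mul]

/-- The action of `T` on `Q / ⟨x⟩`. -/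
theorem exists_quot_action {T : Type u} [Group T] (hQ : Nat.card Q = p ^ 2) {x : Q} (hx : orderOf x = p)
    (φ : T →* MulAut Q) (hφ : ∀ t, φ t x = x) :
    ∃ χ : T →* (ZMod p)ˣ, ∀ t, χ t = 1 → ∀ y : Q, φ t y * y⁻¹ ∈ zpowers x := by
  have hcomm : ∀ a b : Q, a * b = b * a := (IsPGroup.isMulCommutative_of_card_eq_prime_sq hQ).is_comm.comm
  have hn : (zpowers x).Normal := ⟨fun n hn g => by rw [hcomm g n, mul_assoc, mul_inv_cancel, mul_one]; exact hn⟩
  have hmap : ∀ t, (zpowers x).map (φ t : Q →* Q) = zpowers x := by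
    intro t
    rw [MonoidHom.map_zpowers]
    show zpowers (φ t x) = zpowers x
    rw [hφ]
  have hcard : Nat.card (Q ⧸ zpowers x) = p := by
    have h1 := (zpowers x).card_eq_card_quotient_mul_card_subgroup
    rw [hQ, Nat.card_zpowers, hx, pow_two] at h1
    exact (Nat.eq_of_mul_eq_mul_right hp.out.pos h1).symm
  have hcyc : IsCyclic (Q ⧸ zpowers x) := isCyclic_of_prime_card hcard
  let ψ : T →* MulAut (Q ⧸ zpowers x) :=
    { toFun := fun t => QuotientGroup.congr _ _ (φ t) (hmap t)
      map_one' := by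
        ext y
        obtain ⟨y, rfl⟩ := QuotientGroup.mk_surjective y
        show QuotientGroup.mk (φ 1 y) = QuotientGroup.mk y
        rw [map_one]; rfl
      map_mul' := by
        intro s t
        ext y
        obtain ⟨y, rfl⟩ := QuotientGroup.mk_surjective y
        show QuotientGroup.mk (φ (s * t) y) = QuotientGroup.mk (φ s (φ t y))
        rw [map_mul]; rfl }
  let e : MulAut (Q ⧸ zpowers x) ≃* (ZMod p)ˣ :=
    (IsCyclic.mulAutMulEquiv (Q ⧸ zpowers x)).trans (Units.mapEquiv (by rw [hcard]; exact RingEquiv.toMulEquiv (RingEquiv.refl _)))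
  refine ⟨e.toMonoidHom.comp ψ, fun t ht y => ?_⟩
  have h1 : ψ t = 1 := e.injective (by rw [map_one]; exact ht)
  have h2 : (QuotientGroup.mk (φ t y) : Q ⧸ zpowers x) = QuotientGroup.mk y := by
    show ψ t (QuotientGroup.mk y) = _
    rw [h1]; rfl
  rw [eq_comm, QuotientGroup.eq] at h2
  rwa [hcomm]

end

variable {S : Type u} [Group S] [Finite S]

/-- **The general criterion.** -/
theorem even_cent_gen (hp2 : p ≠ 2) (h2 : (Nat.card S).factorization p = 2) {x : S} (hx : orderOf x = p)
    (T : Subgroup S) (hT : IsPGroup 2 T) (hTx : ∀ t ∈ T, t * x = x * t)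
    (hd : ∀ χ : T →* (ZMod p)ˣ, ∃ t : T, χ t = 1 ∧ ¬ p ^ 2 ∣ Nat.card (centralizer ({(t : S)} : Set S))) :
    Even (Nat.card (Sylow p (centralizer ({x} : Set S)))) := by
  set C := centralizer ({x} : Set S) with hC
  have hTC : T ≤ C := fun t ht => mem_centralizer_singleton_iff.2 (hTx t ht)
  have hxC : x ∈ C := mem_centralizer_singleton_iff.2 rfl
  set x' : C := ⟨x, hxC⟩ with hx'
  set T' : Subgroup C := T.subgroupOf C with hT'
  have hT2 : IsPGroup 2 T' := hT.comap_subtype
  refine even_of_noFixed T' hT2 fun Q => ?_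
  by_contra hcon
  push Not at hcon
  -- `Q` contains `x` and has order `p ^ 2`
  have hxcen : x' ∈ center C := by
    rw [mem_center_iff]
    intro g
    exact Subtype.ext (mem_centralizer_singleton_iff.1 g.2)
  have hxQ : x' ∈ (Q : Subgroup C) := by
    have h1 : IsPGroup p (zpowers x') := IsPGroup.of_card (n := 1) (by
      rw [Nat.card_zpowers, pow_one, hx', orderOf_mk, hx])
    obtain ⟨Q', hQ'⟩ := h1.exists_le_sylow
    obtain ⟨g, hg⟩ := MulAction.exists_smul_eq C Q' Q
    rw [← hg, Sylow.coe_subgroup_smul]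
    refine ⟨x', hQ' (mem_zpowers x'), ?_⟩
    show g * x' * g⁻¹ = x'
    rw [mem_center_iff.1 hxcen g, mul_inv_cancel_right]
  have hcardQ : Nat.card Q = p ^ 2 := by
    rw [Q.card_eq_multiplicity]
    congr 1
    refine le_antisymm ?_ ?_
    · rw [← h2]
      exact (Nat.factorization_le_iff_dvd Nat.card_pos.ne' Nat.card_pos.ne').2 (card_subgroup_dvd_card C) p
    · exact (hp.out.pow_dvd_iff_le_factorization Nat.card_pos.ne').1 (sq_dvd_card_cent h2 hx)
  have hnorm : T' ≤ normalizer ((Q : Subgroup C) : Set C) := fun t ht =>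
    Sylow.smul_eq_iff_mem_normalizer.1 (hcon t ht)
  let ι : T →* normalizer ((Q : Subgroup C) : Set C) :=
    { toFun := fun t => ⟨⟨t, hTC t.2⟩, hnorm (mem_subgroupOf.2 t.2)⟩
      map_one' := rfl
      map_mul' := fun _ _ => rfl }
  let φ : T →* MulAut (Q : Subgroup C) := (MulDistribMulAction.toMulAut _ _).comp ι
  have hφ : ∀ (t : T) (y : (Q : Subgroup C)), ((φ t y : (Q : Subgroup C)) : C) = (ι t : C) * y * (ι t : C)⁻¹ :=
    fun _ _ => rfl
  have hφx : ∀ t, φ t ⟨x', hxQ⟩ = ⟨x', hxQ⟩ := by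
    intro t
    apply Subtype.ext
    rw [hφ]
    show (ι t : C) * x' * (ι t : C)⁻¹ = x'
    rw [mem_center_iff.1 hxcen, mul_inv_cancel_right]
  have hxo : orderOf (⟨x', hxQ⟩ : (Q : Subgroup C)) = p := by rw [orderOf_mk, hx', orderOf_mk, hx]
  obtain ⟨χ, hχ⟩ := exists_quot_action (Q := (Q : Subgroup C)) hcardQ hxo φ hφx
  obtain ⟨t, ht, htd⟩ := hd χ
  obtain ⟨k, hk⟩ := hT t
  have hfix : ∀ y : (Q : Subgroup C), φ t y = y := fun y =>
    fixes_of_mem (Q := (Q : Subgroup C)) hp2 hcardQ hxo (φ t) (hφx t) (k := k)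
      (by rw [← map_pow, hk, map_one]) y (hχ t ht y)
  apply htd
  have hle : (Q : Subgroup C).map C.subtype ≤ centralizer ({(t : S)} : Set S) := by
    rintro _ ⟨y, hy, rfl⟩
    rw [mem_centralizer_singleton_iff]
    have h1 := hφ t ⟨y, hy⟩
    rw [hfix ⟨y, hy⟩] at h1
    have h3 : y * (ι t : C) = (ι t : C) * y := by
      have h4 : y = (ι t : C) * y * (ι t : C)⁻¹ := h1
      calc y * (ι t : C) = ((ι t : C) * y * (ι t : C)⁻¹) * (ι t : C) := by rw [← h4]
        _ = (ι t : C) * y := inv_mul_cancel_right _ _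
    exact congrArg Subtype.val h3
  have h5 := card_dvd_of_le hle
  rwa [card_map_of_injective (subtype_injective C), hcardQ] at h5

/-- **Commutator criterion**: `u, v` in a 2-subgroup of `C(x)` with `p ^ 2 ∤ |C(⁅u, v⁆)|`. -/
theorem even_cent_comm (hp2 : p ≠ 2) (h2 : (Nat.card S).factorization p = 2) {x : S} (hx : orderOf x = p)
    (T : Subgroup S) (hT : IsPGroup 2 T) (hTx : ∀ t ∈ T, t * x = x * t) {u v : S} (hu : u ∈ T) (hv : v ∈ T)
    (hd : ¬ p ^ 2 ∣ Nat.card (centralizer ({u * v * u⁻¹ * v⁻¹} : Set S))) :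
    Even (Nat.card (Sylow p (centralizer ({x} : Set S)))) := by
  refine even_cent_gen hp2 h2 hx T hT hTx fun χ => ?_
  set a : T := ⟨u, hu⟩
  set b : T := ⟨v, hv⟩
  refine ⟨a * b * a⁻¹ * b⁻¹, ?_, hd⟩
  rw [map_mul, map_mul, map_mul, map_inv, map_inv, mul_comm (χ a), mul_inv_cancel_right, mul_inv_cancel]

/-- two involutions `s, t` of `C(x)` whose product has order `4` (dihedral group of order 8) with
`p ^ 2 ∤ |C((s t) ^ 2)|`. -/
theorem even_cent_dihedral (hp2 : p ≠ 2) (h2 : (Nat.card S).factorization p = 2) {x : S} (hx : orderOf x = p)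
    {s t : S} (hs : s ^ 2 = 1) (ht : t ^ 2 = 1) {k : ℕ} (hst : (s * t) ^ 2 ^ k = 1) (hsx : s * x = x * s)
    (htx : t * x = x * t) (hd : ¬ p ^ 2 ∣ Nat.card (centralizer ({(s * t) ^ 2} : Set S))) :
    Even (Nat.card (Sylow p (centralizer ({x} : Set S)))) := by
  have hs' : s⁻¹ = s := inv_eq_of_mul_eq_one_left (by rw [← pow_two, hs])
  have ht' : t⁻¹ = t := inv_eq_of_mul_eq_one_left (by rw [← pow_two, ht])
  have hcomm : s * t * s⁻¹ * t⁻¹ = (s * t) ^ 2 := by rw [hs', ht', pow_two, mul_assoc (s * t)]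
  set T : Subgroup S := closure {s, t} with hT
  have hsT : s ∈ T := subset_closure (by simp)
  have htT : t ∈ T := subset_closure (by simp)
  -- `⟨s t⟩` is normal in `T` of index `≤ 2`
  set R : Subgroup S := zpowers (s * t) with hR
  have hRT : R ≤ T := by rw [hR, zpowers_le]; exact mul_mem hsT htT
  have hR2 : IsPGroup 2 R := by
    rintro ⟨a, ha⟩
    obtain ⟨i, rfl⟩ := mem_zpowers_iff.1 ha
    refine ⟨k, Subtype.ext ?_⟩
    show ((s * t) ^ i) ^ 2 ^ k = 1
    rw [← zpow_natCast, ← zpow_mul, mul_comm, zpow_mul, zpow_natCast, hst, one_zpow]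
  have hsR : ∀ r ∈ R, s * r * s⁻¹ ∈ R := by
    intro r hr
    obtain ⟨i, rfl⟩ := mem_zpowers_iff.1 hr
    rw [← conj_zpow]
    refine zpow_mem ?_ i
    have : s * (s * t) * s⁻¹ = (s * t)⁻¹ := by
      rw [mul_inv_rev, ← mul_assoc, ← pow_two, hs, one_mul, hs', ht']
    rw [this]
    exact inv_mem (mem_zpowers _)
  have hTle : ∀ g ∈ T, g ∈ R ∨ s * g ∈ R := by
    intro g hg
    induction hg using closure_induction with
    | mem y hy =>
      rcases hy with rfl | hy
      · right; rw [← pow_two, hs]; exact one_mem _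
      · rw [Set.mem_singleton_iff] at hy
        subst hy
        right; exact mem_zpowers _
    | one => left; exact one_mem _
    | mul a b _ _ ha hb =>
      rcases ha with ha | ha
      · rcases hb with hb | hb
        · left; exact mul_mem ha hb
        · right
          have := mul_mem (hsR a ha) hb
          have h3 : s * a * s⁻¹ * (s * b) = s * (a * b) := by group
          rwa [h3] at this
      · rcases hb with hb | hb
        · right
          have := mul_mem ha hb
          rwa [mul_assoc] at this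
        · left
          have := mul_mem (hsR _ ha) hb
          have h3 : s * (s * a) * s⁻¹ * (s * b) = s ^ 2 * (a * b) := by rw [pow_two]; group
          rwa [h3, hs, one_mul] at this
    | inv a _ ha =>
      rcases ha with ha | ha
      · left; exact inv_mem ha
      · right
        have := hsR _ (inv_mem ha)
        have h3 : s * (s * a)⁻¹ * s⁻¹ = s * a⁻¹ * (s⁻¹) ^ 2 := by group
        rw [h3, inv_pow, hs, inv_one, mul_one] at this
        exact this
  have hT2 : IsPGroup 2 T := by
    rintro ⟨g, hg⟩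
    rcases hTle g hg with h | h
    · obtain ⟨n, hn⟩ := hR2 ⟨g, h⟩
      have h6 : g ^ 2 ^ n = 1 := congrArg Subtype.val hn
      exact ⟨n, Subtype.ext h6⟩
    · -- `g = s r`, `g ^ 2 = s r s r ∈ R`
      have h3 : g ^ 2 ∈ R := by
        have h4 := mul_mem (hsR _ h) h
        have h5 : s * (s * g) * s⁻¹ * (s * g) = s ^ 2 * g ^ 2 := by rw [pow_two, pow_two]; group
        rwa [h5, hs, one_mul] at h4
      obtain ⟨n, hn⟩ := hR2 ⟨g ^ 2, h3⟩
      refine ⟨n + 1, Subtype.ext ?_⟩
      have h4 : (g ^ 2) ^ 2 ^ n = 1 := congrArg Subtype.val hn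
      show g ^ 2 ^ (n + 1) = 1
      rw [← h4, ← pow_mul, pow_succ, mul_comm]
  refine even_cent_comm hp2 h2 hx T hT2 (fun g hg => ?_) hsT htT (by rwa [hcomm])
  have h4 : T ≤ centralizer ({x} : Set S) := by
    rw [hT, closure_le]
    rintro y (rfl | hy)
    · exact mem_centralizer_singleton_iff.2 hsx
    · rw [Set.mem_singleton_iff] at hy
      subst hy
      exact mem_centralizer_singleton_iff.2 htx
  exact mem_centralizer_singleton_iff.1 (h4 hg)

/-- **Four-group criterion**: commuting involutions `u ≠ v` of `C(x)`, no one of `u, v, u v` with a centralizer of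
order divisible by `p ^ 2`. -/
theorem even_cent_four (hp2 : p ≠ 2) (h2 : (Nat.card S).factorization p = 2) {x : S} (hx : orderOf x = p)
    {u v : S} (hu : u ^ 2 = 1) (hv : v ^ 2 = 1) (huv : u * v = v * u) (hux : u * x = x * u) (hvx : v * x = x * v)
    (h1 : ¬ p ^ 2 ∣ Nat.card (centralizer ({u} : Set S))) (h3 : ¬ p ^ 2 ∣ Nat.card (centralizer ({v} : Set S)))
    (h4 : ¬ p ^ 2 ∣ Nat.card (centralizer ({u * v} : Set S))) :
    Even (Nat.card (Sylow p (centralizer ({x} : Set S)))) := by
  have hT : ∀ g ∈ closure ({u, v} : Set S), g ^ 2 = 1 ∧ g * u = u * g ∧ g * v = v * g := by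
    intro g hg
    induction hg using closure_induction with
    | mem y hy =>
      rcases hy with rfl | hy
      · exact ⟨hu, rfl, huv⟩
      · rw [Set.mem_singleton_iff] at hy
        subst hy
        exact ⟨hv, huv.symm, rfl⟩
    | one => exact ⟨one_pow _, by rw [one_mul, mul_one], by rw [one_mul, mul_one]⟩
    | mul a b ha hb iha ihb =>
      refine ⟨?_, ?_, ?_⟩
      · have hab : a * b = b * a := by
          have h5 : closure ({u, v} : Set S) ≤ centralizer ({a} : Set S) := by
            rw [closure_le]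
            rintro y (rfl | hy)
            · exact mem_centralizer_singleton_iff.2 iha.2.1.symm
            · rw [Set.mem_singleton_iff] at hy
              subst hy
              exact mem_centralizer_singleton_iff.2 iha.2.2.symm
          exact (mem_centralizer_singleton_iff.1 (h5 hb)).symm
        have hc : Commute a b := hab
        rw [hc.mul_pow, iha.1, ihb.1, one_mul]
      · rw [mul_assoc, ihb.2.1, ← mul_assoc, iha.2.1, mul_assoc]
      · rw [mul_assoc, ihb.2.2, ← mul_assoc, iha.2.2, mul_assoc]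
    | inv a ha iha =>
      refine ⟨by rw [inv_pow, iha.1, inv_one], ?_, ?_⟩
      · exact (Commute.inv_left (show Commute a u from iha.2.1)).eq
      · exact (Commute.inv_left (show Commute a v from iha.2.2)).eq
  have huT : u ∈ closure ({u, v} : Set S) := subset_closure (by simp)
  have hvT : v ∈ closure ({u, v} : Set S) := subset_closure (by simp)
  have hTp : IsPGroup 2 (closure ({u, v} : Set S)) := by
    rintro ⟨g, hg⟩
    refine ⟨1, Subtype.ext ?_⟩
    show g ^ 2 ^ 1 = 1
    rw [pow_one]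
    exact (hT g hg).1
  refine even_cent_gen hp2 h2 hx _ hTp (fun g hg => ?_) fun χ => ?_
  · have h5 : closure ({u, v} : Set S) ≤ centralizer ({x} : Set S) := by
      rw [closure_le]
      rintro y (rfl | hy)
      · exact mem_centralizer_singleton_iff.2 hux
      · rw [Set.mem_singleton_iff] at hy
        subst hy
        exact mem_centralizer_singleton_iff.2 hvx
    exact mem_centralizer_singleton_iff.1 (h5 hg)
  · have hsq : ∀ w : (ZMod p)ˣ, w ^ 2 = 1 → w = 1 ∨ w = -1 := by
      intro w hw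
      have h5 : ((w : ZMod p)) ^ 2 = 1 := by
        have := congrArg Units.val hw
        simpa using this
      have h7 : ((w : ZMod p) - 1) * ((w : ZMod p) + 1) = 0 := by linear_combination h5
      rcases mul_eq_zero.1 h7 with h6 | h6
      · exact Or.inl (Units.ext (by simpa using sub_eq_zero.1 h6))
      · exact Or.inr (Units.ext (by simpa using eq_neg_of_add_eq_zero_left h6))
    set a : closure ({u, v} : Set S) := ⟨u, huT⟩ with ha
    set b : closure ({u, v} : Set S) := ⟨v, hvT⟩ with hb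
    have hu1 : χ a ^ 2 = 1 := by
      rw [← map_pow]
      have : a ^ 2 = 1 := Subtype.ext hu
      rw [this, map_one]
    have hv1 : χ b ^ 2 = 1 := by
      rw [← map_pow]
      have : b ^ 2 = 1 := Subtype.ext hv
      rw [this, map_one]
    rcases hsq _ hu1 with h5 | h5
    · exact ⟨a, h5, h1⟩
    · rcases hsq _ hv1 with h6 | h6
      · exact ⟨b, h6, h3⟩
      · refine ⟨a * b, ?_, h4⟩
        rw [map_mul, h5, h6]
        simp

end Cfsg.Agent.H710.PSq
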