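import Cfsg.Agent.H33.IM
import Cfsg.Agent.H710.VanCount
import Cfsg.Agent.Characters.CCBasic
import Cfsg.Agent.H665.NoPQ

/-!
# Degrees divisible by `p ^ 2`: counting criteria (helper710, S4844)

* `im_of_hasDZ` : a character of `p`-defect zero;
* `im_of_abelian` (T1b) : `A` abelian, `∑_{y ∈ A - 1} #C(y) < (#A - 1) k(G)` ⇒ `IM #A G`;
* `im_of_cyclic` (T1a) : `x` of order `p ^ k`, `#C(x) + #C(x ^ p) / p ^ 2 < k(G)` ⇒ `IM (p ^ 2) G`.
-/

set_option autoImplicit false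

namespace Cfsg.Agent.H710.PSq

open Cfsg Cfsg.Agent.Characters.Core
open scoped ComplexConjugate

universe u v

/-- The arithmetic of the multiplicities. -/
theorem arith {ι : Type*} [Fintype ι] (m : ι → ℤ) (n : ℤ) (hn : (Fintype.card ι : ℤ) = n) (hn1 : 1 ≤ n)
    (hd : ¬ n ∣ ∑ i, m i) : n - 1 ≤ n * ∑ i, m i ^ 2 - (∑ i, m i) ^ 2 := by
  set d := ∑ i, m i with hdef
  set r := (-d) % n with hr
  have hn0 : n ≠ 0 := by omega
  have hr0 : 0 < r := by
    rcases (Int.emod_nonneg (-d) hn0).lt_or_eq with h | h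
    · exact h
    · exact absurd ((Int.dvd_neg).1 (Int.dvd_of_emod_eq_zero h.symm)) hd
  have hrn : r < n := Int.emod_lt_of_pos _ (by omega)
  have hq : -d = n * ((-d) / n) + r := (Int.mul_ediv_add_emod (-d) n).symm
  have key : ∀ i, (2 * r - n) * (n * m i - d) + r * (n - r) ≤ (n * m i - d) ^ 2 := by
    intro i
    set k := m i + (-d) / n with hk
    have h1 : n * m i - d = n * k + r := by
      rw [hk]; linear_combination hq
    rw [h1]
    have h2 : 0 ≤ k * (k + 1) := by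
      rcases le_or_gt 0 k with h | h
      · positivity
      · have : k + 1 ≤ 0 := by omega
        nlinarith
    have h3 : 0 ≤ n ^ 2 * (k * (k + 1)) := by positivity
    nlinarith
  have hs : ∑ i, (n * m i - d) = 0 := by
    rw [Finset.sum_sub_distrib, ← Finset.mul_sum, Finset.sum_const, Finset.card_univ, nsmul_eq_mul, hn, ← hdef]
    ring
  have hs2 : ∑ i, (n * m i - d) ^ 2 = n * (n * ∑ i, m i ^ 2 - d ^ 2) := by
    have h1 : ∀ i, (n * m i - d) ^ 2 = n ^ 2 * m i ^ 2 - 2 * n * d * m i + d ^ 2 := fun i => by ring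
    rw [Finset.sum_congr rfl fun i _ => h1 i, Finset.sum_add_distrib, Finset.sum_sub_distrib,
      ← Finset.mul_sum, ← Finset.mul_sum, Finset.sum_const, Finset.card_univ, nsmul_eq_mul, hn, ← hdef]
    ring
  have h4 : ∑ i, ((2 * r - n) * (n * m i - d) + r * (n - r)) ≤ ∑ i, (n * m i - d) ^ 2 :=
    Finset.sum_le_sum fun i _ => key i
  rw [Finset.sum_add_distrib, ← Finset.mul_sum, hs, mul_zero, zero_add, Finset.sum_const, Finset.card_univ,
    nsmul_eq_mul, hn, hs2] at h4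
  have h5 : r * (n - r) ≤ n * ∑ i, m i ^ 2 - d ^ 2 := le_of_mul_le_mul_left h4 (by omega)
  have h6 : n - 1 ≤ r * (n - r) := by nlinarith
  exact h6.trans h5

variable {G : Type u} [Group G]

theorem im_of_hasDZ [Finite G] {p : ℕ} {k : ℕ} (h : H665.NoPQ.HasDZ p G)
    (hd : p ^ k ∣ Nat.card G) (hp : p.Prime) : H33.IM (p ^ k) G := by
  obtain ⟨χ, hχ⟩ := h
  refine ⟨χ, ?_⟩
  have h0 : charDegree (χ : G → ℂ) ≠ 0 := (Cfsg.Agent.Blocks.Basic.charDegree_pos χ.2).ne'
  rw [hp.pow_dvd_iff_le_factorization h0, hχ]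
  exact (hp.pow_dvd_iff_le_factorization Nat.card_pos.ne').1 hd

open Classical in
/-- The sum of the squares on an abelian subgroup. -/
theorem sum_ge [Finite G] (A : Subgroup G) [Fintype A] (hA : ∀ x ∈ A, ∀ y ∈ A, x * y = y * x)
    (χ : IrrCharacter G) (h : ¬ Nat.card A ∣ charDegree (χ : G → ℂ)) :
    (Nat.card A : ℝ) - 1 ≤ ∑ y ∈ (Finset.univ : Finset A).erase 1, ‖(χ : G → ℂ) y‖ ^ 2 := by
  have hc : ∀ a b : A, a * b = b * a := fun a b => Subtype.ext (hA a a.2 b b.2)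
  have := finite_irr (G := A)
  have := Fintype.ofFinite (IrrCharacter A)
  set ψ : A → ℂ := fun a => (χ : G → ℂ) a with hψ
  have hψc : IsCharacter A ψ := isCharacter_comp A.subtype (isIrr_isCharacter χ.2)
  obtain ⟨m, hm⟩ := exists_nat_comb hψc
  have hcard : Fintype.card (IrrCharacter A) = Nat.card A := by
    rw [← Nat.card_eq_fintype_card, Cfsg.Agent.Characters.CCBasic.card_irr_of_comm hc]
  have h1 : ψ 1 = ((∑ θ, m θ : ℕ) : ℂ) := by
    rw [hm, Finset.sum_apply]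
    push_cast
    refine Finset.sum_congr rfl fun θ _ => ?_
    rw [Pi.smul_apply, Cfsg.Agent.Characters.CCBasic.irr_apply_one_of_comm hc θ.2, nsmul_eq_mul, mul_one]
  have hdeg : charDegree (χ : G → ℂ) = ∑ θ, m θ := by
    apply H670.PSing.charDegree_eq_of
    rw [← h1]
    rfl
  have h2 : (∑ y : A, ‖ψ y‖ ^ 2 : ℝ) = Nat.card A * ∑ θ, (m θ : ℝ) ^ 2 := by
    have h3 : classInner ψ ψ = ((∑ θ, (m θ : ℝ) ^ 2 : ℝ) : ℂ) := by
      have h4 : ψ = ∑ θ : IrrCharacter A, (m θ : ℂ) • (θ : A → ℂ) := by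
        rw [hm]
        simp only [Nat.cast_smul_eq_nsmul]
      rw [h4, classInner_sum_smul_sum_smul]
      push_cast
      refine Finset.sum_congr rfl fun θ _ => ?_
      rw [Complex.conj_natCast, sq]
    rw [classInner_def] at h3
    have h5 : (∑ y : A, ψ y * conj (ψ y)) = ((∑ y : A, ‖ψ y‖ ^ 2 : ℝ) : ℂ) := by
      push_cast
      exact Finset.sum_congr rfl fun y _ => Complex.mul_conj' _
    rw [h5] at h3
    have h6 : (Nat.card A : ℂ) ≠ 0 := card_ne_zero_complex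
    have h7 : ((∑ y : A, ‖ψ y‖ ^ 2 : ℝ) : ℂ) = ((Nat.card A * ∑ θ, (m θ : ℝ) ^ 2 : ℝ) : ℂ) := by
      rw [Complex.ofReal_mul, ← h3]
      push_cast
      field_simp
    exact_mod_cast h7
  have h8 : (∑ y ∈ (Finset.univ : Finset A).erase 1, ‖ψ y‖ ^ 2 : ℝ) =
      Nat.card A * ∑ θ, (m θ : ℝ) ^ 2 - (∑ θ, (m θ : ℝ)) ^ 2 := by
    have h9 := Finset.add_sum_erase Finset.univ (fun y : A => ‖ψ y‖ ^ 2) (Finset.mem_univ 1)
    rw [h2] at h9
    have h10 : ‖ψ 1‖ = ∑ θ, (m θ : ℝ) := by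
      rw [h1, Complex.norm_natCast]
      push_cast
      rfl
    rw [h10] at h9
    linarith
  have h11 := arith (fun θ => (m θ : ℤ)) (Nat.card A : ℤ) (by rw [hcard]) (by exact_mod_cast Nat.card_pos)
    (by
      intro hcon
      apply h
      rw [hdeg]
      exact_mod_cast hcon)
  have h12 : ((Nat.card A : ℤ) : ℝ) - 1 ≤ (Nat.card A : ℤ) * ∑ θ, ((m θ : ℤ) : ℝ) ^ 2 - (∑ θ, ((m θ : ℤ) : ℝ)) ^ 2 := by
    exact_mod_cast h11
  push_cast at h12
  rw [h8]
  exact h12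

open Classical in
/-- **T1b**. -/
theorem im_of_abelian [Finite G] (A : Subgroup G) [Fintype A] (hA : ∀ x ∈ A, ∀ y ∈ A, x * y = y * x)
    (h : ∑ y ∈ (Finset.univ : Finset A).erase 1, Nat.card (Subgroup.centralizer ({(y : G)} : Set G)) <
      (Nat.card A - 1) * Nat.card (ConjClasses G)) : H33.IM (Nat.card A) G := by
  by_contra hcon
  have := finite_irr (G := G)
  have := Fintype.ofFinite (IrrCharacter G)
  have hall : ∀ χ : IrrCharacter G, ¬ Nat.card A ∣ charDegree (χ : G → ℂ) := fun χ hχ => hcon ⟨χ, hχ⟩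
  have h1 : ∑ _χ : IrrCharacter G, ((Nat.card A : ℝ) - 1) ≤
      ∑ χ : IrrCharacter G, ∑ y ∈ (Finset.univ : Finset A).erase 1, ‖(χ : G → ℂ) y‖ ^ 2 :=
    Finset.sum_le_sum fun χ _ => sum_ge A hA χ (hall χ)
  rw [Finset.sum_comm, Finset.sum_const, Finset.card_univ, nsmul_eq_mul, ← Nat.card_eq_fintype_card, card_irr] at h1
  have h2 : ∑ y ∈ (Finset.univ : Finset A).erase 1, ∑ χ : IrrCharacter G, ‖(χ : G → ℂ) y‖ ^ 2 =
      ((∑ y ∈ (Finset.univ : Finset A).erase 1, Nat.card (Subgroup.centralizer ({(y : G)} : Set G)) : ℕ) : ℝ) := by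
    push_cast
    exact Finset.sum_congr rfl fun y _ => Cfsg.Agent.SmallSimple.SelfCentSum.sum_norm_sq _
  rw [h2] at h1
  have h3 : (1 : ℕ) ≤ Nat.card A := Nat.card_pos
  have h4 : (((Nat.card A - 1) * Nat.card (ConjClasses G) : ℕ) : ℝ) ≤
      ((∑ y ∈ (Finset.univ : Finset A).erase 1, Nat.card (Subgroup.centralizer ({(y : G)} : Set G)) : ℕ) : ℝ) := by
    push_cast [Nat.cast_sub h3]
    push_cast at h1
    linarith
  have h5 : (Nat.card A - 1) * Nat.card (ConjClasses G) ≤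
      ∑ y ∈ (Finset.univ : Finset A).erase 1, Nat.card (Subgroup.centralizer ({(y : G)} : Set G)) := by
    exact_mod_cast h4
  omega

/-- **T1b** with a uniform bound. -/
theorem im_of_abelian_le [Finite G] (A : Subgroup G) (hA : ∀ x ∈ A, ∀ y ∈ A, x * y = y * x) (hA1 : A ≠ ⊥) {c : ℕ}
    (hc : ∀ y ∈ A, y ≠ 1 → Nat.card (Subgroup.centralizer ({y} : Set G)) ≤ c)
    (h : c < Nat.card (ConjClasses G)) : H33.IM (Nat.card A) G := by
  classical
  have := Fintype.ofFinite A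
  refine im_of_abelian A hA ?_
  have h1 : 1 < Nat.card A := (Subgroup.one_lt_card_iff_ne_bot A).2 hA1
  have h2 : ((Finset.univ : Finset A).erase 1).card = Nat.card A - 1 := by
    rw [Finset.card_erase_of_mem (Finset.mem_univ _), Finset.card_univ, Nat.card_eq_fintype_card]
  calc ∑ y ∈ (Finset.univ : Finset A).erase 1, Nat.card (Subgroup.centralizer ({(y : G)} : Set G))
      ≤ ∑ _y ∈ (Finset.univ : Finset A).erase 1, c := Finset.sum_le_sum fun y hy =>
        hc y y.2 fun h0 => (Finset.ne_of_mem_erase hy) (Subtype.ext h0)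
    _ = (Nat.card A - 1) * c := by rw [Finset.sum_const, h2, smul_eq_mul]
    _ < (Nat.card A - 1) * Nat.card (ConjClasses G) := Nat.mul_lt_mul_of_pos_left h (by omega)

end Cfsg.Agent.H710.PSq
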