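import Cfsg.Agent.H33.IM
import Cfsg.Agent.H413.JOneLocal

/-!
# S4844, the sporadic rows: the form of a row (helper710)

`Row P` : every finite simple group `S` with `P S` has, for every odd prime `p` with `p ^ 2 ∣ |S|`, an irreducible
character of degree divisible by `p ^ 2`.
-/

set_option autoImplicit false

open Cfsg

namespace Cfsg.Agent.H710.PSq

universe u

/-- The row of an isomorphism type. -/
def Row (P : ∀ (S : Type u) [Group S], Prop) : Prop :=
  ∀ {S : Type u} [Group S] [Finite S], P S → IsSimpleGroup S → ∀ {p : ℕ} [Fact p.Prime], p ≠ 2 →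
    p ^ 2 ∣ Nat.card S → H33.IM (p ^ 2) S

/-- an odd prime whose square divides `2 ^ a * n` -/
theorem prime_of_sq {p : ℕ} (hp : p.Prime) (hp2 : p ≠ 2) {N a n : ℕ} (hN : N = 2 ^ a * n) (h : p ^ 2 ∣ N) :
    p ^ 2 ∣ n := by
  rw [hN] at h
  have h1 : Nat.Coprime (p ^ 2) (2 ^ a) := by
    apply Nat.Coprime.pow
    exact (Nat.coprime_primes hp Nat.prime_two).2 hp2
  exact h1.dvd_of_dvd_mul_left h

/-- the primes whose square divides `∏ q ^ e` with exponents at most one outside a list -/
theorem sq_cases {p : ℕ} (hp : p.Prime) {n : ℕ} (hn : n ≠ 0) {l : List ℕ}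
    (h : ∀ q ∈ n.primeFactorsList, q ∉ l → n.primeFactorsList.count q ≤ 1) (hd : p ^ 2 ∣ n) : p ∈ l := by
  by_contra hcon
  have h1 : 2 ≤ n.factorization p := (hp.pow_dvd_iff_le_factorization hn).1 hd
  have h2 : p ∈ n.primeFactorsList := by
    rw [Nat.mem_primeFactorsList hn]
    exact ⟨hp, dvd_trans (dvd_pow_self p two_ne_zero) hd⟩
  have h3 := h p h2 hcon
  rw [Nat.primeFactorsList_count_eq] at h3
  omega

theorem row_j1 : Row.{u} (fun S => Spor.IsoJ1 S) := by
  intro S _ _ h _ p hp hp2 hd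
  exfalso
  obtain ⟨e⟩ := h
  rw [Nat.card_congr e.toEquiv, H413.JOneLocal.card_J1] at hd
  have hp' := hp.out
  have h1 : p ^ 2 ∣ 21945 := prime_of_sq hp' hp2 (a := 3) (n := 21945) (by norm_num) hd
  have h2 : p ≤ 148 := by
    have h3 := Nat.le_of_dvd (by norm_num) h1
    nlinarith
  interval_cases p <;> revert h1 hp' <;> decide

end Cfsg.Agent.H710.PSq
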